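import Cfsg.Agent.H98.Ex2.FiTwoB
import Cfsg.Agent.H29.TF.Dat

/-!
# `Fi24'`: the centralizer of a `2B` involution acting on the codes (helper29)

`ac g c`: the code of `g (cod c) g⁻¹`. `bound_K`, `bound_pairs`: lower bounds for the number of conjugates of an element.
-/

set_option autoImplicit false
set_option maxRecDepth 100000

namespace Cfsg.Agent.H29.TF

open Cfsg Cfsg.Spor Subgroup
open Cfsg.Agent.KFacts.FiTF Cfsg.Agent.KFacts.FiTF.Defs
open Cfsg.Agent.KFacts.FiTF.Orb Cfsg.Agent.KFacts.FiTF.Lin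
open Cfsg.Agent.KFacts.FiTF.OrbSys
open Cfsg.Agent.KFacts.Codes
open Cfsg.Agent.H98.Ex2 Cfsg.Agent.H98.Ex2.FiTwoB
open Cfsg.Agent.Lib.PermNetOrbit
open Cfsg.Agent.H29.TF.Dat

instance finF : Finite Spor.Fi24 := Cfsg.Agent.R08.FiTwentyFour.finite_Fi24

/-- action on codes -/
noncomputable def ac (g : Spor.Fi24) (c : ℕ) : ℕ := Lin.pi 12 z x (g * cod 12 z x c * g⁻¹)

theorem ac_lt (g : Spor.Fi24) (c : ℕ) : ac g c < 4096 := RQ.sys.dt.pi_lt _

theorem norm {g : Spor.Fi24} (hg : g * z = z * g) {r : Spor.Fi24} (hr : r ∈ R) : g * r * g⁻¹ ∈ R :=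
  frame.norm g hg r hr

theorem ac_spec {g : Spor.Fi24} (hg : g * z = z * g) (c : ℕ) :
    Ez z (g * cod 12 z x c * g⁻¹) (cod 12 z x (ac g c)) := RQ.sys.ez_pi (norm hg (cod_mem c))

theorem ac_eq {g : Spor.Fi24} {c d : ℕ} (hd : d < 4096) (h : Ez z (g * cod 12 z x c * g⁻¹) (cod 12 z x d)) :
    ac g c = d := RQ.sys.pi_of hd h

theorem inv_z {g : Spor.Fi24} (hg : g * z = z * g) : g⁻¹ * z = z * g⁻¹ := by
  rw [inv_mul_eq_iff_eq_mul, ← mul_assoc, hg, mul_assoc, mul_inv_cancel, mul_one]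

theorem mul_z {g h : Spor.Fi24} (hg : g * z = z * g) (hh : h * z = z * h) : g * h * z = z * (g * h) := by
  rw [mul_assoc, hh, ← mul_assoc, hg, mul_assoc]

theorem ac_mul {g h : Spor.Fi24} (hg : g * z = z * g) (hh : h * z = z * h) (c : ℕ) : ac (g * h) c = ac g (ac h c) := by
  apply ac_eq (ac_lt _ _)
  have h1 := (ac_spec hh c).conj hg
  have h2 := h1.trans frame.zz (ac_spec hg _)
  have e : g * h * cod 12 z x c * (g * h)⁻¹ = g * (h * cod 12 z x c * h⁻¹) * g⁻¹ := by group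
  rw [e]
  exact h2

theorem ac_xor {g : Spor.Fi24} (hg : g * z = z * g) (c d : ℕ) : ac g (c ^^^ d) = ac g c ^^^ ac g d := by
  have zz := frame.zz
  have hlt : ac g c ^^^ ac g d < 4096 := Nat.xor_lt_two_pow (n := 12) (ac_lt _ _) (ac_lt _ _)
  apply ac_eq hlt
  have h1 : Ez z (cod 12 z x (c ^^^ d)) (cod 12 z x c * cod 12 z x d) := (ez_mul RQ.sys.rel Om.tri c d).symm zz
  have h2 := h1.conj hg
  have e : g * (cod 12 z x c * cod 12 z x d) * g⁻¹ = (g * cod 12 z x c * g⁻¹) * (g * cod 12 z x d * g⁻¹) := by group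
  rw [e] at h2
  have h3 := (ac_spec hg c).mul zz (ac_spec hg d) (cod_comm_z RQ.sys.rel _)
  exact (h2.trans zz h3).trans zz (ez_mul RQ.sys.rel Om.tri _ _)

theorem ac_zero {g : Spor.Fi24} : ac g 0 = 0 := by
  apply ac_eq (by norm_num)
  left
  rw [cod_zero]; group

theorem ac_R {r : Spor.Fi24} (hr : r ∈ R) {c : ℕ} (hc : c < 4096) : ac r c = c := by
  apply ac_eq hc
  exact sit.comm_cases hr (cod_mem c)

theorem ac_one {c : ℕ} (hc : c < 4096) : ac 1 c = c := ac_R R.one_mem hc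

theorem ac_inv {g : Spor.Fi24} (hg : g * z = z * g) {c : ℕ} (hc : c < 4096) : ac g⁻¹ (ac g c) = c := by
  rw [← ac_mul (inv_z hg) hg, inv_mul_cancel, ac_one hc]

theorem ac_inv' {g : Spor.Fi24} (hg : g * z = z * g) {c : ℕ} (hc : c < 4096) : ac g (ac g⁻¹ c) = c := by
  rw [← ac_mul hg (inv_z hg), mul_inv_cancel, ac_one hc]

theorem ac_inv_eq {g : Spor.Fi24} (hg : g * z = z * g) {c d : ℕ} (hc : c < 4096) (h : ac g c = d) : ac g⁻¹ d = c := by
  rw [← h, ac_inv hg hc]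

theorem ac_inj {g : Spor.Fi24} (hg : g * z = z * g) {c d : ℕ} (hc : c < 4096) (hd : d < 4096) (h : ac g c = ac g d) :
    c = d := by
  rw [← ac_inv hg hc, h, ac_inv hg hd]

/-- conjugation -/
theorem ac_conj {g s : Spor.Fi24} (hg : g * z = z * g) (hs : s * z = z * s) {c : ℕ} (hc : c < 4096) :
    ac (g * s * g⁻¹) (ac g c) = ac g (ac s c) := by
  rw [ac_mul (mul_z hg hs) (inv_z hg), ac_mul hg hs, ac_inv hg hc]

/-! ### The masks -/

theorem m2_of_sq {c : ℕ} (hc : c < 4096) (h : cod 12 z x c * cod 12 z x c = z) : M2.testBit c = true := by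
  have hz1 := frame.z1
  by_cases h0 : c = 0
  · exfalso
    rw [h0, cod_zero, mul_one] at h
    exact hz1 h.symm
  have h3 : (2 ^ 4096 - 2 : ℕ).testBit c = true := testBit_full hc h0
  rw [← cover, Nat.testBit_or, Nat.testBit_or, Bool.or_eq_true, Bool.or_eq_true] at h3
  rcases h3 with (h3 | h3) | h3
  · exact absurd (h.symm.trans (sq1 h3)) hz1
  · exact h3
  · exact absurd (h.symm.trans (sq3 h3)) hz1

theorem ac_M2 {g : Spor.Fi24} (hg : g * z = z * g) {c : ℕ} (h : M2.testBit c = true) : M2.testBit (ac g c) = true := by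
  apply m2_of_sq (ac_lt _ _)
  rw [← ez_sq (ac_spec hg c) (cod_z _)]
  calc g * cod 12 z x c * g⁻¹ * (g * cod 12 z x c * g⁻¹) = g * (cod 12 z x c * cod 12 z x c) * g⁻¹ := by group
    _ = g * z * g⁻¹ := by rw [sq2 h]
    _ = z := by rw [hg]; group

theorem ac_OM {g : Spor.Fi24} (hg : g * z = z * g) {c : ℕ} (h : Om.OM.testBit c = true) :
    Om.OM.testBit (ac g c) = true := by
  have hc : c < 4096 := RQ.om_lt h
  have h1 : cod 12 z x c ∈ RQ.Om := by
    rw [RQ.Om, RQ.sys.dt.mem_Om (cod_mem c), RQ.sys.dt.pi_cod hc]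
    exact h
  have h2 := frame.OmC g hg _ h1
  rw [RQ.Om, RQ.sys.dt.mem_Om (norm hg (cod_mem c))] at h2
  exact h2

/-! ### Words in the even products -/

theorem wa_lt (w : List ℕ) {c : ℕ} (hc : c < 4096) : wa w c < 4096 := by
  cases w with
  | nil => exact hc
  | cons k w => exact ff_lt _ _

theorem gwd_E (w : List ℕ) : gwd y w ∈ E := RQ.sys.gwd_mem w

theorem E_z {g : Spor.Fi24} (hg : g ∈ E) : g * z = z * g := frame.Ez g hg

theorem C_z {g : Spor.Fi24} (hg : g ∈ C) : g * z = z * g := (mem_C.1 hg).2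

theorem ac_gwd (w : List ℕ) {c : ℕ} (hc : c < 4096) : ac (gwd y w) c = wa w c :=
  ac_eq (wa_lt w hc) (RQ.sys.gwd_ez w c)

/-! ### Additive functions -/

theorem mod_mul_xor (c d a : ℕ) : (c ^^^ d) % 2 * a = (c % 2 * a) ^^^ (d % 2 * a) := by
  have h : (c ^^^ d) % 2 = (c % 2) ^^^ (d % 2) := Nat.xor_mod_two_pow (n := 1)
  rw [h]
  rcases Nat.mod_two_eq_zero_or_one c with h1 | h1 <;> rcases Nat.mod_two_eq_zero_or_one d with h2 | h2 <;>
    rw [h1, h2] <;> simp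

theorem lf_xor (l : List ℕ) : ∀ c d : ℕ, lf l (c ^^^ d) = lf l c ^^^ lf l d := by
  induction l with
  | nil => intro c d; simp [lf]
  | cons a l ih =>
    intro c d
    show ((c ^^^ d) % 2 * a) ^^^ lf l ((c ^^^ d) / 2) = ((c % 2 * a) ^^^ lf l (c / 2)) ^^^ ((d % 2 * a) ^^^ lf l (d / 2))
    rw [mod_mul_xor, Nat.xor_div_two, ih]
    ac_rfl

theorem om_xor (c d : ℕ) : om (c ^^^ d) = om c ^^^ om d := lf_xor _ _ _

theorem split_top {k c : ℕ} (h : c < 2 ^ (k + 1)) (h' : ¬ c < 2 ^ k) : c = (c % 2 ^ k) ^^^ 2 ^ k := by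
  have hb : c.testBit k = true := by
    rw [Nat.testBit_eq_decide_div_mod_eq, decide_eq_true_eq]
    have h1 : c / 2 ^ k = 1 := by
      rw [Nat.div_eq_iff (Nat.two_pow_pos k)]
      rw [pow_succ] at h
      have := Nat.two_pow_pos k
      omega
    rw [h1]
  apply Nat.eq_of_testBit_eq
  intro i
  rw [Nat.testBit_xor, Nat.testBit_mod_two_pow, Nat.testBit_two_pow]
  rcases lt_trichotomy i k with h1 | h1 | h1
  · have : ¬ k = i := by omega
    simp [h1, this]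
  · subst h1; simp [hb]
  · have h2 : c.testBit i = false := by
      apply Nat.testBit_lt_two_pow
      exact lt_of_lt_of_le h (Nat.pow_le_pow_right (by norm_num) (by omega))
    have h3 : ¬ k = i := by omega
    simp [h2, h3]

theorem add_zero' {f : ℕ → ℕ} (hf : ∀ c d, f (c ^^^ d) = f c ^^^ f d) : f 0 = 0 := by
  have h := hf 0 0
  rw [Nat.xor_self, Nat.xor_self] at h
  exact h

theorem add_ext {f g : ℕ → ℕ} (hf : ∀ c d, f (c ^^^ d) = f c ^^^ f d) (hg : ∀ c d, g (c ^^^ d) = g c ^^^ g d)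
    (h : ∀ j < 12, f (2 ^ j) = g (2 ^ j)) : ∀ k ≤ 12, ∀ c < 2 ^ k, f c = g c := by
  intro k
  induction k with
  | zero =>
    intro _ c hc
    have : c = 0 := by norm_num at hc; exact hc
    rw [this, add_zero' hf, add_zero' hg]
  | succ k ih =>
    intro hk c hc
    by_cases h1 : c < 2 ^ k
    · exact ih (by omega) c h1
    · rw [split_top hc h1, hf, hg, ih (by omega) _ (Nat.mod_lt _ (Nat.two_pow_pos k)), h k (by omega)]

theorem add_ext' {f g : ℕ → ℕ} (hf : ∀ c d, f (c ^^^ d) = f c ^^^ f d) (hg : ∀ c d, g (c ^^^ d) = g c ^^^ g d)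
    (h : ∀ j < 12, f (2 ^ j) = g (2 ^ j)) {c : ℕ} (hc : c < 4096) : f c = g c := add_ext hf hg h 12 le_rfl c hc

/-! ### `om` -/

theorem omL_lt : ∀ a ∈ omL, a < 2 ^ 12 := by decide

theorem om_lt (c : ℕ) : om c < 4096 := lf_lt (n := 12) _ omL_lt _

theorem om3 {c : ℕ} (hc : c < 4096) : om (om (om c)) = c :=
  add_ext' (f := fun c => om (om (om c))) (g := fun c => c)
    (fun c d => by rw [om_xor, om_xor, om_xor]) (fun _ _ => rfl) om_basis3 hc

theorem om_sum {c : ℕ} (hc : c < 4096) : om (om c) ^^^ om c ^^^ c = 0 :=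
  add_ext' (f := fun c => om (om c) ^^^ om c ^^^ c) (g := fun _ => 0)
    (fun c d => by
      show om (om (c ^^^ d)) ^^^ om (c ^^^ d) ^^^ (c ^^^ d) = (om (om c) ^^^ om c ^^^ c) ^^^ (om (om d) ^^^ om d ^^^ d)
      rw [om_xor, om_xor]; ac_rfl) (fun _ _ => rfl) om_basis hc

theorem om2_eq {c : ℕ} (hc : c < 4096) : om (om c) = om c ^^^ c := by
  have h := om_sum hc
  rw [Nat.xor_assoc] at h
  exact Nat.xor_eq_zero_iff.1 h

theorem ac_y {t : ℕ} (ht : t < 6) (c : ℕ) : ac (y t) c = lf (YL t) c :=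
  ac_eq (lf_lt (n := 12) _ (YL_lt _ ht) _) (RQ.sys.y1 ht c)

/-- commuting with `om` -/
def Cm (g : Spor.Fi24) : Prop := g * z = z * g ∧ ∀ c < 4096, ac g (om c) = om (ac g c)

theorem Cm.mul {g h : Spor.Fi24} (hg : Cm g) (hh : Cm h) : Cm (g * h) :=
  ⟨mul_z hg.1 hh.1, fun c hc => by rw [ac_mul hg.1 hh.1, ac_mul hg.1 hh.1, hh.2 c hc, hg.2 _ (ac_lt _ _)]⟩

theorem Cm.inv {g : Spor.Fi24} (hg : Cm g) : Cm g⁻¹ :=
  ⟨inv_z hg.1, fun c hc => by
    apply ac_inj hg.1 (ac_lt _ _) (om_lt _)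
    rw [ac_inv' hg.1 (om_lt _), hg.2 _ (ac_lt _ _), ac_inv' hg.1 hc]⟩

theorem Cm.ofR {r : Spor.Fi24} (hr : r ∈ R) : Cm r :=
  ⟨C_z (sit.RC hr), fun c hc => by rw [ac_R hr (om_lt _), ac_R hr hc]⟩

theorem Cm.y {t : ℕ} (ht : t < 6) : Cm (y t) := by
  refine ⟨RQ.sys.yz t ht, fun c hc => ?_⟩
  rw [ac_y ht, ac_y ht]
  exact add_ext' (f := fun c => lf (YL t) (om c)) (g := fun c => om (lf (YL t) c))
    (fun c d => by
      show lf (YL t) (om (c ^^^ d)) = lf (YL t) (om c) ^^^ lf (YL t) (om d)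
      rw [om_xor, lf_xor])
    (fun c d => by
      show om (lf (YL t) (c ^^^ d)) = om (lf (YL t) c) ^^^ om (lf (YL t) d)
      rw [lf_xor, om_xor]) (om_YL t ht) hc

theorem Cm.W {w : Spor.Fi24} (hw : w ∈ RQ.W) : Cm w := by
  refine RQ.W_ind (p := Cm) (fun t ht => Cm.y ht) ?_ (Cm.ofR R.one_mem) (fun _ _ => Cm.mul) (fun _ => Cm.inv) hw
  rw [RQ.x0_mem]
  exact (Cm.y (by norm_num)).mul (Cm.ofR (RQ.x_mem (by norm_num)))

theorem Cm.E {g : Spor.Fi24} (hg : g ∈ E) : Cm g := by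
  have hD : ∀ d ∈ Dz, Cm d := by
    intro d hd
    obtain ⟨w, hw, h⟩ := FixZ.tran d hd
    rw [← QuasiA.y_zero] at h
    rw [← h]
    have h1 : Cm w := Cm.W hw
    exact (h1.mul (Cm.y (by norm_num))).mul h1.inv
  unfold Defs.E at hg
  induction hg using Subgroup.closure_induction with
  | mem g hg =>
    obtain ⟨e, he, f, hf, rfl⟩ := hg
    exact (hD e he).mul (hD f hf)
  | one => exact Cm.ofR R.one_mem
  | mul a b _ _ ha hb => exact ha.mul hb
  | inv a _ ha => exact ha.inv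

end Cfsg.Agent.H29.TF
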