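import Cfsg.Agent.H29.TF.Act

/-!
# `Fi24'`: the centralizer of a `2B` involution, counting conjugates (helper29)
-/

set_option autoImplicit false
set_option maxRecDepth 100000

namespace Cfsg.Agent.H29.TF

open Cfsg Cfsg.Spor Subgroup
open Cfsg.Agent.KFacts.FiTF Cfsg.Agent.KFacts.FiTF.Defs
open Cfsg.Agent.KFacts.FiTF.Orb Cfsg.Agent.KFacts.FiTF.Lin
open Cfsg.Agent.KFacts.FiTF.OrbSys
open Cfsg.Agent.KFacts.Codes
open Cfsg.Agent.H98.Ex2 Cfsg.Agent.H98.Ex2.FiTwoB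
open Cfsg.Agent.Lib.PermNetOrbit
open Cfsg.Agent.H29.TF.Dat

/-- the action of `t` on the codes below 4096 -/
noncomputable def fa (t : Spor.Fi24) : Fin 4096 → ℕ := fun c => ac t c

/-- `a = c + s c` -/
def InA (s : Spor.Fi24) (a : ℕ) : Prop := ∃ c < 4096, c ^^^ ac s c = a

theorem InA.lt {s : Spor.Fi24} {a : ℕ} (h : InA s a) : a < 4096 := by
  obtain ⟨c, hc, rfl⟩ := h
  exact Nat.xor_lt_two_pow (n := 12) hc (ac_lt _ _)

theorem InA.conj {s g : Spor.Fi24} (hs : s * z = z * s) (hg : g * z = z * g) {a : ℕ} (h : InA s a) :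
    InA (g * s * g⁻¹) (ac g a) := by
  obtain ⟨c, hc, rfl⟩ := h
  refine ⟨ac g c, ac_lt _ _, ?_⟩
  rw [ac_conj hg hs hc, ← ac_xor hg]

theorem fa_R {t : Spor.Fi24} (ht : t * z = z * t) {q : Spor.Fi24} (hq : q ∈ R) : fa (q * t * q⁻¹) = fa t := by
  have hqz : q * z = z * q := C_z (sit.RC hq)
  funext c
  show ac (q * t * q⁻¹) c = ac t c
  have h1 := ac_conj hqz ht (c := c) c.2
  rw [ac_R hq c.2, ac_R hq (ac_lt _ _)] at h1
  exact h1

/-- the `R`-class has at least as many elements as `[R, t]` modulo `z` -/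
theorem card_A {t : Spor.Fi24} (ht : t ∈ C) {A : Finset ℕ} (hA : ∀ a ∈ A, InA t a) : A.card ≤ (cls R t).ncard := by
  classical
  have htz := C_z ht
  choose! c hc hca using hA
  have key : ∀ a ∈ A, Lin.pi 12 z x ((cod 12 z x (c a) * t * (cod 12 z x (c a))⁻¹) * t⁻¹) = a := by
    intro a ha
    have zz := frame.zz
    have h1 : Ez z (t * cod 12 z x (c a) * t⁻¹) (cod 12 z x (ac t (c a))) := ac_spec htz _
    -- `t q⁻¹ t⁻¹ ~ t q t⁻¹`
    have hsq : ∀ q ∈ R, Ez z q⁻¹ q := by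
      intro q hq
      rcases frame.sq q hq with h | h
      · left; exact inv_eq_of_mul_eq_one_left h
      · right
        apply inv_eq_of_mul_eq_one_left
        rw [mul_assoc, h, frame.zz]
    have h2 : Ez z (t * (cod 12 z x (c a))⁻¹ * t⁻¹) (cod 12 z x (ac t (c a))) := by
      have e : t * (cod 12 z x (c a))⁻¹ * t⁻¹ = (t * cod 12 z x (c a) * t⁻¹)⁻¹ := by group
      rw [e]
      exact (hsq _ (norm htz (cod_mem _))).trans zz h1
    have h3 : Ez z (cod 12 z x (c a) * (t * (cod 12 z x (c a))⁻¹ * t⁻¹)) (cod 12 z x (c a ^^^ ac t (c a))) :=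
      ((Ez.refl _).mul zz h2 (cod_comm_z RQ.sys.rel _)).trans zz (ez_mul RQ.sys.rel Om.tri _ _)
    rw [hca a ha] at h3
    have e : cod 12 z x (c a) * t * (cod 12 z x (c a))⁻¹ * t⁻¹ = cod 12 z x (c a) * (t * (cod 12 z x (c a))⁻¹ * t⁻¹) := by
      group
    rw [e]
    refine RQ.sys.pi_of ?_ h3
    rw [← hca a ha]
    exact Nat.xor_lt_two_pow (n := 12) (hc a ha) (ac_lt _ _)
  rw [← Set.ncard_coe_finset]
  refine Set.ncard_le_ncard_of_injOn (fun a => cod 12 z x (c a) * t * (cod 12 z x (c a))⁻¹) ?_ ?_ (Set.toFinite _)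
  · intro a _
    exact ⟨_, cod_mem _, rfl⟩
  · intro a ha b hb hab
    have hab' : cod 12 z x (c a) * t * (cod 12 z x (c a))⁻¹ = cod 12 z x (c b) * t * (cod 12 z x (c b))⁻¹ := hab
    rw [← key a ha, ← key b hb, hab']

/-- each action has `|s ^ R|` elements of the class -/
theorem cls_mul {s : Spor.Fi24} (hs : s ∈ C) : ∃ S : Finset Spor.Fi24, (∀ t, t ∈ S ↔ ∃ g ∈ C, g * s * g⁻¹ = t) ∧
    S.card = (cls C s).ncard ∧ ∀ [DecidableEq (Fin 4096 → ℕ)], (cls R s).ncard * (S.image fa).card ≤ S.card := by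
  classical
  have hf : Fintype Spor.Fi24 := Fintype.ofFinite _
  refine ⟨(cls C s).toFinset, fun t => ?_, (Set.ncard_eq_toFinset_card' _).symm, ?_⟩
  · rw [Set.mem_toFinset]; exact Iff.rfl
  · intro _
    refine Finset.mul_card_image_le_card _ _ ?_
    intro b hb
    obtain ⟨t, ht, rfl⟩ := Finset.mem_image.1 hb
    rw [Set.mem_toFinset] at ht
    obtain ⟨g, hg, rfl⟩ := ht
    rw [← sit.cls_conj hg, Set.ncard_eq_toFinset_card']
    refine Finset.card_le_card ?_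
    intro t ht
    rw [Set.mem_toFinset] at ht
    obtain ⟨q, hq, rfl⟩ := ht
    rw [Finset.mem_filter, Set.mem_toFinset]
    refine ⟨⟨q * g, C.mul_mem (sit.RC hq) hg, by group⟩, ?_⟩
    exact fa_R (C_z (C.mul_mem (C.mul_mem hg hs) (C.inv_mem hg))) hq

/-- **the number of conjugates, a stabiliser orbit** -/
theorem bound_K {s : Spor.Fi24} (hs : s ∈ C) {r c M : ℕ} (hr : r < 4096) (hM : M < 2 ^ 2 ^ 12) (hc : ac s r = c)
    (h : ∀ b, M.testBit b = true → ∃ g ∈ C, ac g r = r ∧ ac g c = b) :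
    (cls R s).ncard * pc 12 M ≤ (cls C s).ncard := by
  classical
  obtain ⟨S, hS, hScard, hmul⟩ := cls_mul hs
  rw [← hScard]
  refine le_trans ?_ (hmul)
  apply Nat.mul_le_mul_left
  rw [pc_eq _ _ hM]
  have h1 : ∀ b ∈ bits (2 ^ 12) M, ∃ g ∈ C, ac g r = r ∧ ac g c = b := fun b hb => h b (mem_bits.1 hb).2
  choose! g hg hgr hgc using h1
  refine Finset.card_le_card_of_injOn (fun b => fa (g b * s * (g b)⁻¹)) ?_ ?_
  · intro b hb
    exact Finset.mem_coe.2 (Finset.mem_image_of_mem _ ((hS _).2 ⟨g b, hg b hb, rfl⟩))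
  · have key : ∀ b ∈ bits (2 ^ 12) M, ac (g b * s * (g b)⁻¹) r = b := by
      intro b hb
      have h2 := ac_conj (C_z (hg b hb)) (C_z hs) hr
      rw [hgr b hb, hc, hgc b hb] at h2
      exact h2
    intro b hb b' hb' he
    rw [← key b hb, ← key b' hb']
    exact congrFun he ⟨r, hr⟩

/-- **the number of conjugates, pairs** -/
theorem bound_P {s : Spor.Fi24} (hs : s ∈ C) {r c : ℕ} (hr : r < 4096) (hA : InA s r) (hc : ac s r = c)
    {T : Finset (ℕ × ℕ)} (hT : ∀ p ∈ T, ∃ g ∈ C, ac g r = p.1 ∧ ac g c = p.2) : T.card ≤ (cls C s).ncard := by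
  classical
  obtain ⟨S, hS, hScard, hmul⟩ := cls_mul hs
  rw [← hScard]
  refine le_trans ?_ (hmul)
  choose! g hg hgr hgc using hT
  have hmaps : ∀ p ∈ T, fa (g p * s * (g p)⁻¹) ∈ S.image fa := fun p hp =>
    Finset.mem_image_of_mem _ ((hS _).2 ⟨g p, hg p hp, rfl⟩)
  refine Finset.card_le_mul_card_image_of_maps_to (f := fun p => fa (g p * s * (g p)⁻¹)) hmaps _ ?_
  intro φ hφ
  obtain ⟨t, ht, rfl⟩ := Finset.mem_image.1 hφ
  obtain ⟨k, hk, rfl⟩ := (hS t).1 ht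
  have hkC : k * s * k⁻¹ ∈ C := C.mul_mem (C.mul_mem hk hs) (C.inv_mem hk)
  rw [← sit.cls_conj hk]
  -- the fibre
  have hfib : ∀ p ∈ T.filter (fun p => fa (g p * s * (g p)⁻¹) = fa (k * s * k⁻¹)),
      InA (k * s * k⁻¹) p.1 ∧ ac (k * s * k⁻¹) p.1 = p.2 := by
    intro p hp
    obtain ⟨hpT, hpf⟩ := Finset.mem_filter.1 hp
    have e : ∀ d < 4096, ac (g p * s * (g p)⁻¹) d = ac (k * s * k⁻¹) d := fun d hd => congrFun hpf ⟨d, hd⟩
    have h1 := hA.conj (C_z hs) (C_z (hg p hpT))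
    have hlt := h1.lt
    rw [hgr p hpT] at h1 hlt
    constructor
    · obtain ⟨d, hd, h2⟩ := h1
      exact ⟨d, hd, by rw [← e d hd]; exact h2⟩
    · rw [← e _ hlt]
      have h2 := ac_conj (C_z (hg p hpT)) (C_z hs) hr
      rw [hgr p hpT, hc, hgc p hpT] at h2
      exact h2
  have h1 : (T.filter (fun p => fa (g p * s * (g p)⁻¹) = fa (k * s * k⁻¹))).card =
      ((T.filter (fun p => fa (g p * s * (g p)⁻¹) = fa (k * s * k⁻¹))).image Prod.fst).card := by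
    rw [Finset.card_image_of_injOn]
    intro p hp p' hp' he
    have e1 := (hfib p hp).2
    have e2 := (hfib p' hp').2
    have he' : p.1 = p'.1 := he
    exact Prod.ext he' (by rw [← e1, ← e2, he'])
  rw [h1]
  refine card_A hkC ?_
  intro a ha
  obtain ⟨p, hp, rfl⟩ := Finset.mem_image.1 ha
  exact (hfib p hp).1

theorem E_le_C {g : Spor.Fi24} (hg : g ∈ E) : g ∈ C := E_C hg

/-- orbit of a stabiliser -/
theorem stab_orb {Ls : List (List ℕ)} {r : ℕ} (hr : r < 4096) (hfix : ∀ w ∈ Ls, wa w r = r) {M k N c0 : ℕ}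
    (hc0 : c0 < 4096) (ho : orb (fun i a => wa (Ls.getD i []) a) M k N (2 ^ c0) = true) :
    ∀ b, M.testBit b = true → b < 4096 ∧ ∃ g ∈ E, ac g r = r ∧ ac g c0 = b := by
  refine orb_spec (P := fun b => b < 4096 ∧ ∃ g ∈ E, ac g r = r ∧ ac g c0 = b) ?_ k N _ ho ?_
  · rintro i a ⟨ha, g, hg, h1, h2⟩
    have hw : wa (Ls.getD i []) r = r := by
      rcases Nat.lt_or_ge i Ls.length with hi | hi
      · rw [List.getD_eq_getElem _ _ hi]
        exact hfix _ (List.getElem_mem hi)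
      · rw [List.getD_eq_default _ _ hi]
        rfl
    refine ⟨wa_lt _ ha, gwd y (Ls.getD i []) * g, E.mul_mem (gwd_E _) hg, ?_, ?_⟩
    · rw [ac_mul (E_z (gwd_E _)) (E_z hg), h1, ac_gwd _ hr, hw]
    · rw [ac_mul (E_z (gwd_E _)) (E_z hg), h2, ac_gwd _ ha]
  · intro b hb
    rw [Nat.testBit_two_pow, decide_eq_true_eq] at hb
    subst hb
    exact ⟨hc0, 1, E.one_mem, ac_one hr, ac_one hc0⟩

theorem stab_orb' {Ls : List (List ℕ)} {r : ℕ} (hr : r < 4096) (hfix : ∀ w ∈ Ls, wa w r = r) {M k N c0 : ℕ}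
    (hc0 : c0 < 4096) (ho : orb (fun i a => wa (Ls.getD i []) a) M k N (2 ^ c0) = true) {c : ℕ}
    (hc : M.testBit c = true) : ∀ b, M.testBit b = true → ∃ g ∈ E, ac g r = r ∧ ac g c = b := by
  intro b hb
  obtain ⟨hclt, g, hg, h1, h2⟩ := stab_orb hr hfix hc0 ho c hc
  obtain ⟨-, g', hg', h3, h4⟩ := stab_orb hr hfix hc0 ho b hb
  refine ⟨g' * g⁻¹, E.mul_mem hg' (E.inv_mem hg), ?_, ?_⟩
  · rw [ac_mul (E_z hg') (inv_z (E_z hg)), ac_inv_eq (E_z hg) hr h1, h3]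
  · rw [ac_mul (E_z hg') (inv_z (E_z hg)), ac_inv_eq (E_z hg) hc0 h2, h4]

/-- transitivity of `E` on the codes of a mask -/
theorem reach {M k N r : ℕ} (hr : r < 4096) (ho : orb ff M k N (2 ^ r) = true) :
    ∀ b, M.testBit b = true → b < 4096 ∧ ∃ g ∈ E, ac g r = b := by
  refine orb_spec (P := fun b => b < 4096 ∧ ∃ g ∈ E, ac g r = b) ?_ k N _ ho ?_
  · rintro i a ⟨ha, g, hg, h1⟩
    refine ⟨ff_lt _ _, y (i / 6 % 6) * y (i % 6) * g, E.mul_mem (RQ.sys.kE i) hg, ?_⟩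
    rw [ac_mul (E_z (RQ.sys.kE i)) (E_z hg), h1]
    exact ac_eq (ff_lt _ _) (RQ.sys.ffk i a)
  · intro b hb
    rw [Nat.testBit_two_pow, decide_eq_true_eq] at hb
    subst hb
    exact ⟨hr, 1, E.one_mem, ac_one hr⟩

/-- **the number of conjugates, pairs in an orbit** -/
theorem bound_pairs {s : Spor.Fi24} (hs : s ∈ C) {r c : ℕ} (hr : r < 4096) (hA : InA s r) (hc : ac s r = c)
    {M k N M' : ℕ} (ho : orb ff M k N (2 ^ r) = true) (hM : M < 2 ^ 2 ^ 12) (hM' : M' < 2 ^ 2 ^ 12)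
    (h : ∀ b, M'.testBit b = true → ∃ g ∈ E, ac g r = r ∧ ac g c = b) : pc 12 M * pc 12 M' ≤ (cls C s).ncard := by
  classical
  have h1 : ∀ a ∈ bits (2 ^ 12) M, ∃ g ∈ E, ac g r = a := fun a ha => (reach hr ho a (mem_bits.1 ha).2).2
  choose! t ht htr using h1
  have hinj : Set.InjOn (fun p : ℕ × ℕ => (p.1, ac (t p.1) p.2))
      ((bits (2 ^ 12) M ×ˢ bits (2 ^ 12) M' : Finset (ℕ × ℕ)) : Set (ℕ × ℕ)) := by
    rintro ⟨a, b⟩ hp ⟨a', b'⟩ hp' he
    simp only [Finset.coe_product, Set.mem_prod, Finset.mem_coe] at hp hp'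
    simp only [Prod.mk.injEq] at he
    obtain ⟨rfl, he⟩ := he
    rw [ac_inj (E_z (ht a hp.1)) (mem_bits.1 hp.2).1 (mem_bits.1 hp'.2).1 he]
  have h2 := Finset.card_image_of_injOn hinj
  rw [Finset.card_product, ← pc_eq _ _ hM, ← pc_eq _ _ hM'] at h2
  rw [← h2]
  refine bound_P hs hr hA hc ?_
  intro p hp
  obtain ⟨⟨a, b⟩, hab, rfl⟩ := Finset.mem_image.1 hp
  rw [Finset.mem_product] at hab
  obtain ⟨g, hg, h3, h4⟩ := h b (mem_bits.1 hab.2).2
  refine ⟨t a * g, C.mul_mem (E_C (ht a hab.1)) (E_C hg), ?_, ?_⟩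
  · rw [ac_mul (E_z (ht a hab.1)) (E_z hg), h3, htr a hab.1]
  · rw [ac_mul (E_z (ht a hab.1)) (E_z hg), h4]

theorem cls_conj_C {s g : Spor.Fi24} (hg : g ∈ C) : cls C (g * s * g⁻¹) = cls C s := by
  ext t
  constructor
  · rintro ⟨k, hk, rfl⟩
    exact ⟨k * g, C.mul_mem hk hg, by group⟩
  · rintro ⟨k, hk, rfl⟩
    exact ⟨k * g⁻¹, C.mul_mem hk (C.inv_mem hg), by group⟩

theorem cls_inv_C (s : Spor.Fi24) : (cls C s⁻¹).ncard = (cls C s).ncard := by
  have h : cls C s⁻¹ = (fun t => t⁻¹) '' cls C s := by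
    ext t
    constructor
    · rintro ⟨k, hk, rfl⟩
      exact ⟨_, ⟨k, hk, rfl⟩, by group⟩
    · rintro ⟨_, ⟨k, hk, rfl⟩, rfl⟩
      exact ⟨k, hk, by group⟩
  rw [h, Set.ncard_image_of_injective _ inv_injective]

end Cfsg.Agent.H29.TF
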