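import Cfsg.Agent.H29.TF.Count

/-!
# `Fi24'`: elements of order 3 commuting with a `2B` involution have many conjugates (helper29)

`many` : for `s ∈ C = C_K(z)` of order 3, `15929 ≤ |s ^ C|`, or a conjugate of `s` or `s⁻¹` acts on `R/⟨z⟩` as the scalar `ω`.
-/

set_option autoImplicit false
set_option maxRecDepth 100000

namespace Cfsg.Agent.H29.TF

open Cfsg Cfsg.Spor Subgroup
open Cfsg.Agent.KFacts.FiTF Cfsg.Agent.KFacts.FiTF.Defs
open Cfsg.Agent.KFacts.FiTF.Orb Cfsg.Agent.KFacts.FiTF.Lin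
open Cfsg.Agent.KFacts.FiTF.OrbSys
open Cfsg.Agent.KFacts.Codes
open Cfsg.Agent.H98.Ex2 Cfsg.Agent.H98.Ex2.FiTwoB
open Cfsg.Agent.Lib.PermNetOrbit
open Cfsg.Agent.H29.TF.Dat

theorem of64 {P : ℕ → Prop} (h : ∀ a < 64, ∀ b < 64, P (64 * a + b)) {c : ℕ} (hc : c < 4096) : P c := by
  have h1 := h (c / 64) (by omega) (c % 64) (Nat.mod_lt _ (by norm_num))
  rwa [Nat.div_add_mod] at h1

/-! ### `[R, s]` -/

theorem InA.xor {s : Spor.Fi24} (hs : s * z = z * s) {a b : ℕ} (ha : InA s a) (hb : InA s b) : InA s (a ^^^ b) := by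
  obtain ⟨c, hc, rfl⟩ := ha
  obtain ⟨d, hd, rfl⟩ := hb
  refine ⟨c ^^^ d, Nat.xor_lt_two_pow (n := 12) hc hd, ?_⟩
  rw [ac_xor hs]
  simp only [Nat.xor_assoc, Nat.xor_left_comm]

theorem InA.om {s : Spor.Fi24} (hs : Cm s) {a : ℕ} (ha : InA s a) : InA s (om a) := by
  obtain ⟨c, hc, rfl⟩ := ha
  exact ⟨Dat.om c, om_lt _, by rw [hs.2 c hc, om_xor]⟩

theorem ac_cube {s : Spor.Fi24} (hs : s * z = z * s) (h3 : s ^ 3 = 1) {c : ℕ} (hc : c < 4096) :
    ac s (ac s (ac s c)) = c := by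
  rw [← ac_mul hs hs, ← ac_mul (mul_z hs hs) hs]
  have e : s * s * s = 1 := by rw [← h3]; simp only [pow_succ, pow_zero, one_mul]
  rw [e, ac_one hc]

theorem InA.sum {s : Spor.Fi24} (hs : s * z = z * s) (h3 : s ^ 3 = 1) {a : ℕ} (ha : InA s a) :
    a ^^^ ac s a = ac s (ac s a) := by
  obtain ⟨c, hc, rfl⟩ := ha
  rw [ac_xor hs, ac_xor hs, ac_cube hs h3 hc]
  calc c ^^^ ac s c ^^^ (ac s c ^^^ ac s (ac s c)) = (ac s c ^^^ ac s c) ^^^ (c ^^^ ac s (ac s c)) := by
        simp only [Nat.xor_assoc, Nat.xor_left_comm]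
    _ = _ := by rw [Nat.xor_self, Nat.zero_xor, Nat.xor_comm]

theorem comm_ez {t : Spor.Fi24} (ht : t * z = z * t) (c : ℕ) :
    Ez z (cod 12 z x c * t * (cod 12 z x c)⁻¹ * t⁻¹) (cod 12 z x (c ^^^ ac t c)) := by
  have zz := frame.zz
  have h1 : Ez z (t * cod 12 z x c * t⁻¹) (cod 12 z x (ac t c)) := ac_spec ht _
  have hsq : ∀ q ∈ R, Ez z q⁻¹ q := by
    intro q hq
    rcases frame.sq q hq with h | h
    · left; exact inv_eq_of_mul_eq_one_left h
    · right
      apply inv_eq_of_mul_eq_one_left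
      rw [mul_assoc, h, frame.zz]
  have h2 : Ez z (t * (cod 12 z x c)⁻¹ * t⁻¹) (cod 12 z x (ac t c)) := by
    have e : t * (cod 12 z x c)⁻¹ * t⁻¹ = (t * cod 12 z x c * t⁻¹)⁻¹ := by group
    rw [e]
    exact (hsq _ (norm ht (cod_mem _))).trans zz h1
  have h3 : Ez z (cod 12 z x c * (t * (cod 12 z x c)⁻¹ * t⁻¹)) (cod 12 z x (c ^^^ ac t c)) :=
    ((Ez.refl _).mul zz h2 (cod_comm_z RQ.sys.rel _)).trans zz (ez_mul RQ.sys.rel Om.tri _ _)
  have e : cod 12 z x c * t * (cod 12 z x c)⁻¹ * t⁻¹ = cod 12 z x c * (t * (cod 12 z x c)⁻¹ * t⁻¹) := by group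
  rw [e]
  exact h3

theorem exists_A {s : Spor.Fi24} (hs : s ∈ C) (h3 : s ^ 3 = 1) (h1 : s ≠ 1) : ∃ a, InA s a ∧ M2.testBit a = true := by
  obtain ⟨u, ⟨huR, huu⟩, q, hq, hu⟩ := sit.exists_four hs h3 (moves h3 h1)
  have zz := frame.zz
  have hsz := C_z hs
  set c := Lin.pi 12 z x q with hc
  have hclt : c < 4096 := RQ.sys.dt.pi_lt _
  have hqc : Ez z q (cod 12 z x c) := RQ.sys.ez_pi hq
  have h2 : Ez z u (cod 12 z x (c ^^^ ac s c)) := by
    have e1 : q * s * q⁻¹ * s⁻¹ = cod 12 z x c * s * (cod 12 z x c)⁻¹ * s⁻¹ := by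
      rcases hqc with h | h
      · rw [← h]
      · rw [h]
        have h4 : (z * cod 12 z x c) * s * (z * cod 12 z x c)⁻¹ = cod 12 z x c * s * (cod 12 z x c)⁻¹ := by
          have h5 := cod_comm_z RQ.sys.rel (x := x) (z := z) c
          calc (z * cod 12 z x c) * s * (z * cod 12 z x c)⁻¹ = (z * cod 12 z x c) * s * (cod 12 z x c)⁻¹ * z⁻¹ := by group
            _ = (cod 12 z x c * z) * s * (cod 12 z x c)⁻¹ * z⁻¹ := by rw [h5]
            _ = cod 12 z x c * (s * z) * (cod 12 z x c)⁻¹ * z⁻¹ := by rw [hsz]; group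
            _ = cod 12 z x c * s * (z * (cod 12 z x c)⁻¹) * z⁻¹ := by group
            _ = cod 12 z x c * s * ((cod 12 z x c)⁻¹ * z) * z⁻¹ := by rw [inv_z h5]
            _ = _ := by group
        rw [h4]
    rcases hu with h | h
    · rw [h, e1]; exact comm_ez hsz c
    · rw [h, e1]
      have h4 : Ez z (z * (cod 12 z x c * s * (cod 12 z x c)⁻¹ * s⁻¹)) (cod 12 z x c * s * (cod 12 z x c)⁻¹ * s⁻¹) :=
        Or.inr rfl
      exact h4.trans zz (comm_ez hsz c)
  refine ⟨_, ⟨c, hclt, rfl⟩, m2_of_sq (Nat.xor_lt_two_pow (n := 12) hclt (ac_lt _ _)) ?_⟩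
  rw [← ez_sq h2 (cod_z _)]
  exact huu

/-! ### Case 1 -/

theorem om6 : om 6 = 11 ∧ om 11 = 13 ∧ om 13 = 6 := by decide +kernel

theorem suborb6 {c : ℕ} (hc : c < 4096) (h1 : M2.testBit c = true) (h2 : M2.testBit (6 ^^^ c) = true) (h11 : c ≠ 11)
    (h13 : c ≠ 13) : ∃ M, M < 2 ^ 2 ^ 12 ∧ 90 ≤ pc 12 M ∧
      ∀ b, M.testBit b = true → ∃ g ∈ E, ac g 6 = 6 ∧ ac g c = b := by
  have h := of64 (P := fun c => ckA c = true) ckA_aux hc
  simp only [ckA, h1, h2, Bool.and_self, Bool.not_true, Bool.false_or, Bool.or_eq_true] at h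
  rcases h with h | h | h | h | h | h
  · exact absurd (Nat.eq_of_beq_eq_true h) h11
  · exact absurd (Nat.eq_of_beq_eq_true h) h13
  · exact ⟨MA26, ltA26, by rw [pcA26]; norm_num, stab_orb' (by norm_num) fix6 (by norm_num) orbA26 h⟩
  · exact ⟨MA28, ltA28, by rw [pcA28]; norm_num, stab_orb' (by norm_num) fix6 (by norm_num) orbA28 h⟩
  · exact ⟨MA75, ltA75, by rw [pcA75], stab_orb' (by norm_num) fix6 (by norm_num) orbA75 h⟩
  · exact ⟨MA77, ltA77, by rw [pcA77], stab_orb' (by norm_num) fix6 (by norm_num) orbA77 h⟩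

theorem case1 {s : Spor.Fi24} (hs : s ∈ E) (h3 : s ^ 3 = 1) {a : ℕ} (ha : InA s a) (hm : M2.testBit a = true)
    (h1 : ac s a ≠ om a) (h2 : ac s a ≠ om (om a)) : 181440 ≤ (cls C s).ncard := by
  have hsz := E_z hs
  have halt := ha.lt
  obtain ⟨-, g, hg, hga⟩ := reach (by norm_num) orb2 a hm
  have hk : g⁻¹ ∈ E := E.inv_mem hg
  have hkz := E_z hk
  have hk6 : ac g⁻¹ a = 6 := ac_inv_eq (E_z hg) (by norm_num) hga
  set k := g⁻¹ with hkd
  have hA : InA (k * s * k⁻¹) 6 := by rw [← hk6]; exact ha.conj hsz hkz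
  have hc : ac (k * s * k⁻¹) 6 = ac k (ac s a) := by rw [← hk6]; exact ac_conj hkz hsz halt
  have hm1 : M2.testBit (ac k (ac s a)) = true := ac_M2 hkz (ac_M2 hsz hm)
  have hm2 : M2.testBit (6 ^^^ ac k (ac s a)) = true := by
    have e : 6 ^^^ ac k (ac s a) = ac k (ac s (ac s a)) := by
      rw [← ha.sum hsz h3, ac_xor hkz, hk6]
    rw [e]
    exact ac_M2 hkz (ac_M2 hsz (ac_M2 hsz hm))
  have hCk := Cm.E hk
  have n11 : ac k (ac s a) ≠ 11 := by
    intro h
    apply h1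
    apply ac_inj hkz (ac_lt _ _) (om_lt _)
    rw [h, hCk.2 a halt, hk6, om6.1]
  have n13 : ac k (ac s a) ≠ 13 := by
    intro h
    apply h2
    apply ac_inj hkz (ac_lt _ _) (om_lt _)
    rw [h, hCk.2 _ (om_lt _), hCk.2 a halt, hk6, om6.1, om6.2.1]
  obtain ⟨M, hM, hp, hst⟩ := suborb6 (ac_lt _ _) hm1 hm2 n11 n13
  have hsC : k * s * k⁻¹ ∈ C := E_C (E.mul_mem (E.mul_mem hk hs) (E.inv_mem hk))
  have h4 := bound_pairs hsC (by norm_num) hA hc orb2 lt2 hM hst
  rw [cls_conj_C (E_C hk), Dat.pcM2] at h4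
  have h5 : 2016 * 90 ≤ 2016 * pc 12 M := Nat.mul_le_mul_left _ hp
  omega

/-! ### The frame -/

theorem om_OM {c : ℕ} (h : Om.OM.testBit c = true) : Om.OM.testBit (om c) = true := by
  have h1 := of64 (P := fun c => ckOM c = true) om_OM_aux (RQ.om_lt h)
  simpa only [ckOM, h, Bool.not_true, Bool.false_or] using h1

theorem F15_of {c : ℕ} (hc : c < 4096) (h0 : Om.OM.testBit (6 ^^^ c) = true) (h1 : Om.OM.testBit (6 ^^^ om c) = true)
    (h2 : Om.OM.testBit (6 ^^^ om (om c)) = true) : c ∈ F15 := by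
  have h := of64 (P := fun c => ckF c = true) ckF_aux hc
  simp only [ckF, h0, h1, h2, Bool.and_self, Bool.not_true, Bool.false_or] at h
  exact List.mem_of_elem_eq_true h

theorem F15_lt : ∀ w ∈ F15, w < 4096 := by decide

theorem F15_fix {s : Spor.Fi24} (hs : Cm s) (h6 : ac s 6 = 11) : ∀ w ∈ F15, ac s w ∈ F15 := by
  have key : ∀ w ∈ F15, Om.OM.testBit (6 ^^^ om (om (ac s w))) = true := by
    intro w hw
    have h1 := ac_OM hs.1 (F15_OM w hw).1
    rw [ac_xor hs.1, h6] at h1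
    have h2 := om_OM (om_OM h1)
    rw [om_xor, om_xor, om6.2.1, om6.2.2] at h2
    exact h2
  intro w hw
  have hlt := F15_lt w hw
  have hw1 := (F15_OM w hw).2
  have hw2 := (F15_OM _ hw1).2
  have e1 := key _ hw1
  have e2 := key _ hw2
  rw [hs.2 w hlt, om3 (ac_lt _ _)] at e1
  rw [hs.2 _ (om_lt _), hs.2 w hlt, om3 (om_lt _)] at e2
  exact F15_of (ac_lt _ _) e1 e2 (key w hw)

theorem mlt_spec {a w : ℕ} (h : mlt a w = true) : ∃ e : Fin 3, w = omp e a := by
  simp only [mlt, Bool.or_eq_true] at h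
  rcases h with h | h | h
  · exact ⟨0, Nat.eq_of_beq_eq_true h⟩
  · exact ⟨1, Nat.eq_of_beq_eq_true h⟩
  · exact ⟨2, Nat.eq_of_beq_eq_true h⟩

theorem InA6 {s : Spor.Fi24} (hs : Cm s) (h6 : ac s 6 = 11) : InA s 6 := by
  refine ⟨11, by norm_num, ?_⟩
  have h1 : ac s 11 = 13 := by
    have h2 := hs.2 6 (by norm_num)
    rw [om6.1, h6, om6.2.1] at h2
    exact h2
  rw [h1]
  decide

/-- `s` multiplies the vectors of the frame by scalars -/
theorem frame_mlt {s : Spor.Fi24} (hs : Cm s) (h6 : ac s 6 = 11)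
    (H : ∀ a, InA s a → M2.testBit a = true → ac s a = om a ∨ ac s a = om (om a)) {i : ℕ} (hi : i < 5) :
    mlt (v i) (ac s (v i)) = true := by
  have hv := v_mem i hi
  have hw := F15_fix hs h6 _ hv
  have hw' := F15_fix hs h6 _ hw
  have h := ckG_all i hi _ hw _ hw'
  rw [ckG, Bool.or_eq_true] at h
  rcases h with h | h
  · exact h
  exfalso
  simp only [Bool.and_eq_true, Bool.not_eq_true'] at h
  obtain ⟨h1, h2, h3⟩ := h
  have hA : InA s (6 ^^^ (v i ^^^ ac s (v i))) := (InA6 hs h6).xor hs.1 ⟨v i, F15_lt _ hv, rfl⟩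
  have h4 := H _ hA h1
  rw [ac_xor hs.1, ac_xor hs.1, h6] at h4
  rcases h4 with h4 | h4
  · rw [h4, Nat.beq_refl] at h2
    exact absurd h2 (by decide)
  · rw [h4, Nat.beq_refl] at h3
    exact absurd h3 (by decide)

theorem ac_omp {s : Spor.Fi24} (hs : Cm s) (n : ℕ) {w : ℕ} (hw : w < 4096) : ac s (omp n w) = omp n (ac s w) ∧ omp n w < 4096 := by
  induction n with
  | zero => exact ⟨rfl, hw⟩
  | succ n ih =>
    refine ⟨?_, om_lt _⟩
    show ac s (om (omp n w)) = om (omp n (ac s w))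
    rw [hs.2 _ ih.2, ih.1]

theorem ac_cf {s : Spor.Fi24} (hs : Cm s) (k : ℕ) {w : ℕ} (hw : w < 4096) : ac s (cf k w) = cf k (ac s w) := by
  cases k with
  | zero => exact ac_zero
  | succ k => exact (ac_omp hs k hw).1

theorem InA.omp {s : Spor.Fi24} (hs : Cm s) (n : ℕ) {a : ℕ} (ha : InA s a) : InA s (omp n a) := by
  induction n with
  | zero => exact ha
  | succ n ih => exact ih.om hs

theorem InA.zero {s : Spor.Fi24} : InA s 0 := ⟨0, by norm_num, by rw [ac_zero]; rfl⟩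

theorem InA.cf {s : Spor.Fi24} (hs : Cm s) (k : ℕ) {a : ℕ} (ha : InA s a) : InA s (cf k a) := by
  cases k with
  | zero => exact InA.zero
  | succ k => exact ha.omp hs k

/-- `v i` lies in `[R, s]` if it is multiplied by a nontrivial scalar -/
theorem InA_v {s : Spor.Fi24} (hs : Cm s) {w : ℕ} (hw : w < 4096) (h : ac s w = om w ∨ ac s w = om (om w)) : InA s w := by
  rcases h with h | h
  · have h1 : InA s (om (om w)) := ⟨w, hw, by rw [h, om2_eq hw, Nat.xor_comm]⟩
    have h2 := h1.om hs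
    rwa [om3 hw] at h2
  · have h1 : InA s (om w) := ⟨w, hw, by rw [h, om2_eq hw, Nat.xor_comm (om w), ← Nat.xor_assoc, Nat.xor_self, Nat.zero_xor]⟩
    have h2 := (h1.om hs).om hs
    rwa [om3 hw] at h2

theorem combi : ∀ a b c d e : Fin 3, a ≠ 2 → b ≠ 2 → c ≠ 2 → d ≠ 2 → e ≠ 2 → (1 + a.1 + b.1 + c.1 + d.1 + e.1) % 3 = 0 →
    (a = 1 ∧ b = 1 ∧ c = 1 ∧ d = 1 ∧ e = 1) ∨ ∃ i j : Fin 5, i < j ∧ a.1 = eij i j 1 ∧ b.1 = eij i j 2 ∧ c.1 = eij i j 3 ∧
      d.1 = eij i j 4 ∧ e.1 = eij i j 5 := by decide +kernel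

theorem fb_spec : fb 0 = 6 ∧ fb 1 = om 6 ∧ (∀ i < 5, fb (2 * i + 2) = v i ∧ fb (2 * i + 3) = om (v i)) := by decide +kernel

theorem ac_fbs {s : Spor.Fi24} (hs : s * z = z * s) {f f' : ℕ → ℕ} {n : ℕ} (h : ∀ i < n, ac s (f i) = f' i) (b : ℕ) :
    ac s (fbs f b n) = fbs f' b n := by
  induction n with
  | zero => exact ac_zero
  | succ n ih =>
    show ac s ((b / 2 ^ n % 2 * f n) ^^^ fbs f b n) = (b / 2 ^ n % 2 * f' n) ^^^ fbs f' b n
    rw [ac_xor hs, ih fun i hi => h i (by omega)]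
    rcases Nat.mod_two_eq_zero_or_one (b / 2 ^ n) with h1 | h1
    · rw [h1, zero_mul, zero_mul, ac_zero]
    · rw [h1, one_mul, one_mul, h n (by omega)]

/-- `s` acts as `ω` -/
def IsOm (s : Spor.Fi24) : Prop := ∀ c < 4096, ac s c = om c

theorem isOm_of {s : Spor.Fi24} (hs : Cm s) (h6 : ac s 6 = om 6) (hv : ∀ i < 5, ac s (v i) = om (v i)) : IsOm s := by
  have hfb : ∀ i < 12, ac s (fb i) = om (fb i) := by
    obtain ⟨f0, f1, f2⟩ := fb_spec
    intro i hi
    by_cases h0 : i = 0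
    · rw [h0, f0, h6]
    by_cases h1 : i = 1
    · rw [h1, f1, hs.2 6 (by norm_num), h6]
    have h2 := f2 ((i - 2) / 2) (by omega)
    have h3 := hv ((i - 2) / 2) (by omega)
    have hlt := F15_lt _ (v_mem ((i - 2) / 2) (by omega))
    rcases Nat.mod_two_eq_zero_or_one i with h4 | h4
    · have e : i = 2 * ((i - 2) / 2) + 2 := by omega
      rw [e, h2.1, h3]
    · have e : i = 2 * ((i - 2) / 2) + 3 := by omega
      rw [e, h2.2, hs.2 _ hlt, h3]
  intro c hc
  refine add_ext' (f := ac s) (g := om) (ac_xor hs.1) om_xor ?_ hc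
  intro j hj
  obtain ⟨e1, e2⟩ := fbs_ex j hj
  rw [← e2]
  conv_lhs => rw [← e1]
  exact ac_fbs hs.1 hfb _

/-! ### Case 2 -/

theorem case2 {s : Spor.Fi24} (hs : s ∈ E) (h6 : ac s 6 = 11)
    (H : ∀ a, InA s a → M2.testBit a = true → ac s a = om a ∨ ac s a = om (om a)) :
    15929 ≤ (cls C s).ncard ∨ IsOm s := by
  have hC := Cm.E hs
  have hsz := E_z hs
  have hsC : s ∈ C := E_C hs
  have he : ∀ i < 5, ∃ e : Fin 3, ac s (v i) = omp e (v i) := fun i hi => mlt_spec (frame_mlt hC h6 H hi)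
  choose! e he using he
  have hvlt : ∀ i < 5, v i < 4096 := fun i hi => F15_lt _ (v_mem i hi)
  -- the sum of the exponents
  have hsum : (1 + (e 0).1 + (e 1).1 + (e 2).1 + (e 3).1 + (e 4).1) % 3 = 0 := by
    apply rt_sum
    have h1 := ac_OM hsz root
    rw [ac_xor hsz, ac_xor hsz, ac_xor hsz, ac_xor hsz, ac_xor hsz, h6, he 0 (by norm_num), he 1 (by norm_num),
      he 2 (by norm_num), he 3 (by norm_num), he 4 (by norm_num)] at h1
    exact h1
  by_cases hα : ∃ i < 5, e i = 2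
  · -- a root pair
    left
    obtain ⟨i, hi, hei⟩ := hα
    obtain ⟨hr, hg1, hg2⟩ := gA_spec i hi
    have hvi : ac s (v i) = om (om (v i)) := by rw [he i hi, hei]; rfl
    have hAu : InA s (6 ^^^ v i) := (InA6 hC h6).xor hsz (InA_v hC (hvlt i hi) (Or.inr hvi))
    have hult : 6 ^^^ v i < 4096 := hAu.lt
    have hsu : ac s (6 ^^^ v i) = 11 ^^^ om (om (v i)) := by rw [ac_xor hsz, h6, hvi]
    set g := gwd y (gA i) with hg
    have hgE : g ∈ E := gwd_E _
    have hgz := E_z hgE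
    have hgu : ac g (6 ^^^ v i) = 1 := by rw [ac_gwd _ hult, hg1]
    have hA : InA (g * s * g⁻¹) 1 := by rw [← hgu]; exact hAu.conj hsz hgz
    have hc : ac (g * s * g⁻¹) 1 = wa (gA i) (11 ^^^ om (om (v i))) := by
      have h1 := ac_conj hgz hsz hult
      rw [hgu, hsu] at h1
      rw [h1, ac_gwd]
      exact Nat.xor_lt_two_pow (n := 12) (by norm_num) (om_lt _)
    have hsC' : g * s * g⁻¹ ∈ C := C.mul_mem (C.mul_mem (E_C hgE) hsC) (C.inv_mem (E_C hgE))
    have h1 := bound_pairs hsC' (by norm_num) hA hc orb1 lt1 ltB4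
      (stab_orb' (by norm_num) fixC1 (by norm_num) orbB4 hg2)
    rw [cls_conj_C (E_C hgE), pc1, pcB4] at h1
    omega
  · push Not at hα
    rcases combi _ _ _ _ _ (hα 0 (by norm_num)) (hα 1 (by norm_num)) (hα 2 (by norm_num)) (hα 3 (by norm_num))
      (hα 4 (by norm_num)) hsum with h | ⟨i, j, hij, f0, f1, f2, f3, f4⟩
    · right
      obtain ⟨a0, a1, a2, a3, a4⟩ := h
      refine isOm_of hC (by rw [h6, om6.1]) ?_
      intro i hi
      have e1 : ∀ i < 5, e i = 1 := by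
        intro i hi
        interval_cases i
        · exact a0
        · exact a1
        · exact a2
        · exact a3
        · exact a4
      rw [he i hi, e1 i hi]; rfl
    · left
      have hi := i.2
      have hj := j.2
      have hij' : i.1 < j.1 := hij
      obtain ⟨hg1, hg2⟩ := gB_spec i hi j hj hij'
      set ks := kB i.1 j.1 with hks
      have h6' : ac s 6 = omp (eij i j 0) 6 := by
        rw [h6]
        show 11 = omp (eij i j 0) 6
        have : eij i j 0 = 1 := by simp [eij]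
        rw [this]
        exact om6.1.symm
      have hcomb : ac s (comb (fun _ => 0) ks) = comb (eij i j) ks := by
        have hz : ∀ w : ℕ, omp 0 w = w := fun _ => rfl
        unfold comb
        simp only [hz]
        rw [ac_xor hsz, ac_xor hsz, ac_xor hsz, ac_xor hsz, ac_xor hsz, ac_cf hC _ (by norm_num),
          ac_cf hC _ (hvlt 0 (by norm_num)), ac_cf hC _ (hvlt 1 (by norm_num)), ac_cf hC _ (hvlt 2 (by norm_num)),
          ac_cf hC _ (hvlt 3 (by norm_num)), ac_cf hC _ (hvlt 4 (by norm_num)), h6', he 0 (by norm_num),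
          he 1 (by norm_num), he 2 (by norm_num), he 3 (by norm_num), he 4 (by norm_num), f0, f1, f2, f3, f4]
      have hclt : comb (fun _ => 0) ks < 4096 := by
        have hcf : ∀ k w, w < 4096 → cf k w < 4096 := by
          intro k w hw
          cases k with
          | zero => exact (by norm_num : (0 : ℕ) < 4096)
          | succ k => exact (ac_omp hC k hw).2
        have hx : ∀ a b : ℕ, a < 4096 → b < 4096 → a ^^^ b < 4096 := fun a b ha hb => Nat.xor_lt_two_pow (n := 12) ha hb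
        unfold comb
        exact hx _ _ (hcf _ _ (by show 6 < 4096; norm_num)) (hx _ _ (hcf _ _ (hvlt 0 (by norm_num))) (hx _ _ (hcf _ _ (hvlt 1 (by norm_num)))
          (hx _ _ (hcf _ _ (hvlt 2 (by norm_num))) (hx _ _ (hcf _ _ (hvlt 3 (by norm_num))) (hcf _ _ (hvlt 4 (by norm_num)))))))
      set g := gwd y (gB i.1 j.1) with hg
      have hgE : g ∈ E := gwd_E _
      have hgz := E_z hgE
      have hg17 : ac g (comb (fun _ => 0) ks) = 17 := by rw [ac_gwd _ hclt, hg1]
      have hsC' : g * s * g⁻¹ ∈ C := C.mul_mem (C.mul_mem (E_C hgE) hsC) (C.inv_mem (E_C hgE))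
      have hc : ac (g * s * g⁻¹) 17 = wa (gB i.1 j.1) (comb (eij i j) ks) := by
        have h1 := ac_conj hgz hsz hclt
        rw [hg17, hcomb] at h1
        rw [h1, ac_gwd]
        rw [← hcomb]
        exact ac_lt _ _
      have h1 := bound_K hsC' (by norm_num) ltC193 hc (fun b hb => by
        obtain ⟨k, hk, h2, h3⟩ := stab_orb' (by norm_num) fix17 (by norm_num) orbC193 hg2 b hb
        exact ⟨k, E_C hk, h2, h3⟩)
      rw [cls_conj_C (E_C hgE), sit.cls_conj (E_C hgE), pcC193] at h1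
      -- `|s ^ R| ≥ 64`
      have hei : ∀ k < 5, (e k).1 = eij i j (k + 1) := by
        intro k hk
        interval_cases k
        · exact f0
        · exact f1
        · exact f2
        · exact f3
        · exact f4
      have hvi : InA s (v i) := by
        apply InA_v hC (hvlt i hi)
        left
        rw [he i hi, hei i hi]
        have : eij i j (i + 1) = 1 := by simp [eij]
        rw [this]; rfl
      have hvj : InA s (v j) := by
        apply InA_v hC (hvlt j hj)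
        left
        rw [he j hj, hei j hj]
        have : eij i j (j + 1) = 1 := by simp [eij]
        rw [this]; rfl
      have h2 : (ls i j).toFinset.card ≤ (cls R s).ncard := by
        refine card_A hsC ?_
        intro a ha
        rw [List.mem_toFinset, ls, List.mem_map] at ha
        obtain ⟨n, -, rfl⟩ := ha
        exact ((InA6 hC h6).cf hC _).xor hsz ((hvi.cf hC _).xor hsz (hvj.cf hC _))
      rw [List.toFinset_card_of_nodup (ls_nodup i hi j hj hij')] at h2
      have h3 : (ls i j).length = 64 := by rw [ls, List.length_map, List.length_range]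
      rw [h3] at h2
      have h4 : 64 * 320 ≤ (cls R s).ncard * 320 := Nat.mul_le_mul_right _ h2
      omega

/-- elements of odd order of `C` lie in `E` -/
theorem mem_E {s : Spor.Fi24} (hs : s ∈ C) (h3 : s ^ 3 = 1) : s ∈ E := by
  have h1 : E ≤ C := fun g hg => E_C hg
  have h2 : E.relIndex C * Nat.card ↥E = Nat.card ↥C := by
    rw [Subgroup.relIndex, ← Nat.card_congr (Subgroup.subgroupOfEquivOfLe h1).toEquiv, Subgroup.index_mul_card]
  have h3' := RQ.sys.card_E
  rw [card_C] at h2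
  have hle : E.relIndex C ≤ 2 := by
    by_contra h
    push Not at h
    have h4 : 3 * (9797760 * 8192) ≤ E.relIndex C * Nat.card ↥E := Nat.mul_le_mul h h3'
    omega
  have hpos : 0 < E.relIndex C := by
    rcases Nat.eq_zero_or_pos (E.relIndex C) with h | h
    · rw [h, zero_mul] at h2; omega
    · exact h
  have h12 : E.relIndex C = 1 ∨ E.relIndex C = 2 := by omega
  rcases h12 with h | h
  · exact (Subgroup.relIndex_eq_one.1 h) hs
  · have h4 : (E.subgroupOf C).index = 2 := h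
    have h5 := Subgroup.mul_self_mem_of_index_two h4 ⟨s, hs⟩
    have h6 : s * s ∈ E := h5
    have e : s = (s * s) * (s * s) := by
      calc s = s ^ 3 * s := by rw [h3, one_mul]
        _ = (s * s) * (s * s) := by simp only [pow_succ, pow_zero, one_mul]; group
    rw [e]
    exact E.mul_mem h6 h6

/-- **Many conjugates.** -/
theorem many {s : Spor.Fi24} (hs : s ∈ C) (h3 : s ^ 3 = 1) (h1 : s ≠ 1) :
    15929 ≤ (cls C s).ncard ∨ ∃ g ∈ C, IsOm (g * s * g⁻¹) ∨ IsOm (g * s⁻¹ * g⁻¹) := by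
  have hE := mem_E hs h3
  have hsz := C_z hs
  by_cases H : ∀ a, InA s a → M2.testBit a = true → ac s a = om a ∨ ac s a = om (om a)
  · obtain ⟨a, ha, hm⟩ := exists_A hs h3 h1
    have halt := ha.lt
    obtain ⟨-, g, hg, hga⟩ := reach (by norm_num) orb2 a hm
    have hk : g⁻¹ ∈ E := E.inv_mem hg
    have hkz := E_z hk
    have hk6 : ac g⁻¹ a = 6 := ac_inv_eq (E_z hg) (by norm_num) hga
    have hCk := Cm.E hk
    set k := g⁻¹ with hkd
    -- transport of the hypothesis
    have HT : ∀ t ∈ E, (∀ a, InA t a → M2.testBit a = true → ac t a = om a ∨ ac t a = om (om a)) →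
        ∀ a, InA (k * t * k⁻¹) a → M2.testBit a = true → ac (k * t * k⁻¹) a = om a ∨ ac (k * t * k⁻¹) a = om (om a) := by
      intro t ht HH b hb hbm
      have htz := E_z ht
      have hkt : k * t * k⁻¹ ∈ E := E.mul_mem (E.mul_mem hk ht) (E.inv_mem hk)
      have hb' := hb.conj (E_z hkt) (inv_z hkz)
      have e : k⁻¹ * (k * t * k⁻¹) * k⁻¹⁻¹ = t := by group
      rw [e] at hb'
      have hblt := hb.lt
      have h4 := HH _ hb' (ac_M2 (inv_z hkz) hbm)
      have e2 : ac (k * t * k⁻¹) b = ac k (ac t (ac k⁻¹ b)) := by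
        rw [ac_mul (mul_z hkz htz) (inv_z hkz), ac_mul hkz htz]
      rw [e2]
      rcases h4 with h4 | h4
      · left
        rw [h4, hCk.2 _ (ac_lt _ _), ac_inv' hkz hblt]
      · right
        rw [h4, hCk.2 _ (om_lt _), hCk.2 _ (ac_lt _ _), ac_inv' hkz hblt]
    have hsi : s⁻¹ ∈ E := E.inv_mem hE
    have hCs := Cm.E hE
    have hcub := @ac_cube s hsz h3
    have hinv : ∀ c < 4096, ac s⁻¹ c = ac s (ac s c) := by
      intro c hc
      exact ac_inv_eq hsz (ac_lt _ _) (hcub hc)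
    rcases H a ha hm with h4 | h4
    · have h5 : ac (k * s * k⁻¹) 6 = 11 := by
        have h6 := ac_conj hkz hsz halt
        rw [hk6, h4, hCk.2 a halt, hk6, om6.1] at h6
        exact h6
      have hkt : k * s * k⁻¹ ∈ E := E.mul_mem (E.mul_mem hk hE) (E.inv_mem hk)
      rcases case2 hkt h5 (HT s hE H) with h6 | h6
      · left
        rwa [cls_conj_C (E_C hk)] at h6
      · exact Or.inr ⟨k, E_C hk, Or.inl h6⟩
    · -- the inverse
      have h4' : ac s⁻¹ a = om a := by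
        rw [hinv a halt, h4, hCs.2 _ (om_lt _), hCs.2 a halt, h4]
        rw [om3 (om_lt _)]
      have H' : ∀ a, InA s⁻¹ a → M2.testBit a = true → ac s⁻¹ a = om a ∨ ac s⁻¹ a = om (om a) := by
        rintro b ⟨c, hc, rfl⟩ hbm
        have hAb : InA s (c ^^^ ac s⁻¹ c) := by
          refine ⟨ac s⁻¹ c, ac_lt _ _, ?_⟩
          rw [ac_inv' hsz hc, Nat.xor_comm]
        have hblt := hAb.lt
        rw [hinv _ hblt]
        rcases H _ hAb hbm with h5 | h5
        · right
          rw [h5, hCs.2 _ hblt, h5]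
        · left
          rw [h5, hCs.2 _ (om_lt _), hCs.2 _ hblt, h5, om3 (om_lt _)]
      have h5 : ac (k * s⁻¹ * k⁻¹) 6 = 11 := by
        have h6 := ac_conj hkz (inv_z hsz) halt
        rw [hk6, h4', hCk.2 a halt, hk6, om6.1] at h6
        exact h6
      have hkt : k * s⁻¹ * k⁻¹ ∈ E := E.mul_mem (E.mul_mem hk hsi) (E.inv_mem hk)
      rcases case2 hkt h5 (HT _ hsi H') with h6 | h6
      · left
        rw [cls_conj_C (E_C hk), cls_inv_C] at h6
        exact h6
      · exact Or.inr ⟨k, E_C hk, Or.inr h6⟩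
  · left
    push Not at H
    obtain ⟨a, ha, hm, h4, h5⟩ := H
    have h6 := case1 hE h3 ha hm h4 h5
    omega

end Cfsg.Agent.H29.TF
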